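import Mathlib
import Cfsg.Agent.Lib.Helper59.Taussky

set_option autoImplicit false

namespace Cfsg.Agent.Lib.Helper59

/-- A cyclic group has at most one involution. -/
theorem involution_unique_zpowers {G : Type*} [Group G] {a w z : G} (hw : w ∈ Subgroup.zpowers a)
    (hz : z ∈ Subgroup.zpowers a) (how : orderOf w = 2) (hoz : orderOf z = 2) : w = z := by
  obtain ⟨i, rfl⟩ := hw
  obtain ⟨j, rfl⟩ := hz
  simp only at how hoz ⊢
  have h1 : ∀ l : ℤ, orderOf (a ^ l) = 2 → ∃ s : ℤ, 2 * l = (orderOf a : ℤ) * (2 * s + 1) := by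
    intro l hl
    have h2 : (a ^ l) ^ 2 = 1 := by rw [← hl, pow_orderOf_eq_one]
    have h3 : a ^ (l * 2) = 1 := by rw [zpow_mul]; exact_mod_cast h2
    obtain ⟨s, hs⟩ := orderOf_dvd_iff_zpow_eq_one.mpr h3
    rcases Int.even_or_odd' s with ⟨t, rfl | rfl⟩
    · exfalso
      have h4 : l = (orderOf a : ℤ) * t := by linarith
      have h5 : a ^ l = 1 := by
        rw [h4, zpow_mul, zpow_natCast, pow_orderOf_eq_one, one_zpow]
      rw [h5, orderOf_one] at hl
      omega
    · exact ⟨t, by linarith⟩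
  obtain ⟨s, hs⟩ := h1 i how
  obtain ⟨t, ht⟩ := h1 j hoz
  have h2 : i = j + (orderOf a : ℤ) * (s - t) := by linarith
  rw [h2, zpow_add, zpow_mul, zpow_natCast, pow_orderOf_eq_one, one_zpow, mul_one]

/-- In a finite group with commutator subgroup of index four and a cyclic subgroup `⟨a⟩` of index
two, the centralizer of an element `g ∉ ⟨a⟩` is `{1, z, g, g z}`. -/
theorem centralizer_outside {G : Type*} [Group G] [Finite G] (hidx : (commutator G).index = 4)
    (a : G) (ha : (Subgroup.zpowers a).index = 2) (z : G) (hz : orderOf z = 2)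
    (hzc : z ∈ Subgroup.center G) (hzM : z ∈ Subgroup.zpowers a) (g : G)
    (hg : g ∉ Subgroup.zpowers a) (c : G) (hc : c * g = g * c) :
    c = 1 ∨ c = z ∨ c = g ∨ c = g * z := by
  have hab : ∀ m ∈ Subgroup.zpowers a, ∀ m' ∈ Subgroup.zpowers a, m * m' = m' * m := by
    rintro _ ⟨i, rfl⟩ _ ⟨j, rfl⟩
    simp only
    rw [← zpow_add, ← zpow_add, add_comm]
  obtain ⟨φ, hφ, hφr⟩ := commutator_hom_of_abelian_index_two (Subgroup.zpowers a) ha hab g hg
  have hmemker : ∀ m : Subgroup.zpowers a, (m : G) * g = g * m → m ∈ φ.ker := by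
    intro m hm
    rw [MonoidHom.mem_ker, hφ, hm]
    group
  have hzker : (⟨z, hzM⟩ : Subgroup.zpowers a) ∈ φ.ker :=
    hmemker _ (Subgroup.mem_center_iff.mp hzc g).symm
  have hcardker : Nat.card φ.ker ≤ 2 := by
    have h1 : Nat.card φ.ker * Nat.card φ.range = Nat.card (Subgroup.zpowers a) := by
      rw [← Subgroup.index_ker]
      exact φ.ker.card_mul_index
    have h2 := (Subgroup.zpowers a).card_mul_index
    have h3 := (commutator G).card_mul_index
    have h4 : Nat.card (commutator G) ≤ Nat.card φ.range := Subgroup.card_le_of_le hφr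
    rw [ha] at h2
    rw [hidx] at h3
    have h5 : 0 < Nat.card φ.range := Nat.card_pos
    by_contra hcon
    have h6 : 3 ≤ Nat.card φ.ker := by omega
    have h7 : 3 * Nat.card φ.range ≤ Nat.card φ.ker * Nat.card φ.range :=
      Nat.mul_le_mul_right _ h6
    omega
  have hker : Subgroup.zpowers (⟨z, hzM⟩ : Subgroup.zpowers a) = φ.ker := by
    apply Subgroup.eq_of_le_of_card_ge
    · rw [Subgroup.zpowers_le]; exact hzker
    · rw [Nat.card_zpowers, Subgroup.orderOf_mk, hz]
      exact hcardker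
  have hM : ∀ m ∈ Subgroup.zpowers a, m * g = g * m → m = 1 ∨ m = z := by
    intro m hm hmg
    have h1 := hmemker ⟨m, hm⟩ hmg
    rw [← hker] at h1
    have hz' : orderOf (⟨z, hzM⟩ : Subgroup.zpowers a) = 2 := by rw [Subgroup.orderOf_mk, hz]
    rcases mem_zpowers_of_orderOf_two hz' h1 with h | h
    · left; exact congrArg Subtype.val h
    · right; exact congrArg Subtype.val h
  by_cases hcM : c ∈ Subgroup.zpowers a
  · rcases hM c hcM hc with h | h
    · exact Or.inl h
    · exact Or.inr (Or.inl h)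
  · have h1 : g⁻¹ * c ∈ Subgroup.zpowers a := (Subgroup.mul_mem_iff_of_index_two ha).mpr
      ⟨fun h => absurd (by simpa using Subgroup.inv_mem _ h) hg, fun h => absurd h hcM⟩
    have h2 : g⁻¹ * c * g = g * (g⁻¹ * c) := by
      rw [mul_assoc, hc]; group
    rcases hM _ h1 h2 with h | h
    · right; right; left
      exact (inv_mul_eq_one.mp h).symm
    · right; right; right
      rw [← h]; group

end Cfsg.Agent.Lib.Helper59
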