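import Mathlib
import Cfsg.Agent.Lib.Helper59.TwoGroupUniq

set_option autoImplicit false

namespace Cfsg.Agent.Lib.Helper59

/-- Lifting the generalized quaternion structure of a quotient `S ⧸ N`. -/
theorem quat_quotient_lift {S : Type*} [Group S] [Finite S] (hS : IsPGroup 2 S) (N : Subgroup S)
    [N.Normal] (hna : ¬ IsMulCommutative (S ⧸ N))
    (huniq : ∀ x y : S ⧸ N, orderOf x = 2 → orderOf y = 2 → x = y) :
    ∃ (k : ℕ) (a b : S), orderOf (a : S ⧸ N) = 4 * 2 ^ k ∧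
      (b : S ⧸ N) ∉ Subgroup.zpowers (a : S ⧸ N) ∧
      (b : S ⧸ N) * (b : S ⧸ N) = (a : S ⧸ N) ^ (2 * 2 ^ k) ∧
      (b : S ⧸ N) * (a : S ⧸ N) * (b : S ⧸ N)⁻¹ = (a : S ⧸ N)⁻¹ ∧
      ∀ x : S, ∃ i : ℤ, ∃ n ∈ N, x = a ^ i * n ∨ x = a ^ i * b * n := by
  rcases two_group_unique_involution (hS.to_quotient N) huniq with hcyc | ⟨k, a', b', ha, hcard, hb, hbb, hba⟩
  · exfalso
    apply hna
    obtain ⟨g, hg⟩ := hcyc.exists_generator
    refine ⟨⟨fun x y => ?_⟩⟩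
    obtain ⟨i, rfl⟩ := hg x
    obtain ⟨j, rfl⟩ := hg y
    rw [← zpow_add, ← zpow_add, add_comm]
  · obtain ⟨a, rfl⟩ := QuotientGroup.mk_surjective a'
    obtain ⟨b, rfl⟩ := QuotientGroup.mk_surjective b'
    refine ⟨k, a, b, ha, hb, hbb, hba, ?_⟩
    have hidx : (Subgroup.zpowers (a : S ⧸ N)).index = 2 := by
      have := (Subgroup.zpowers (a : S ⧸ N)).card_mul_index
      rw [Nat.card_zpowers, ha, hcard] at this
      have e : 8 * 2 ^ k = 4 * 2 ^ k * 2 := by ring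
      rw [e] at this
      exact Nat.eq_of_mul_eq_mul_left (by positivity) this
    intro x
    by_cases hx : (x : S ⧸ N) ∈ Subgroup.zpowers (a : S ⧸ N)
    · obtain ⟨i, hi⟩ := hx
      simp only at hi
      refine ⟨i, (a ^ i)⁻¹ * x, ?_, Or.inl (by group)⟩
      rw [← QuotientGroup.eq, QuotientGroup.mk_zpow]
      exact hi
    · have hb' : (b : S ⧸ N)⁻¹ ∉ Subgroup.zpowers (a : S ⧸ N) :=
        fun h => hb (by simpa using Subgroup.inv_mem _ h)
      have : (x : S ⧸ N) * (b : S ⧸ N)⁻¹ ∈ Subgroup.zpowers (a : S ⧸ N) :=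
        (Subgroup.mul_mem_iff_of_index_two hidx).mpr ⟨fun h => absurd h hx, fun h => absurd h hb'⟩
      obtain ⟨i, hi⟩ := this
      simp only at hi
      refine ⟨i, (a ^ i * b)⁻¹ * x, ?_, Or.inr (by group)⟩
      rw [← QuotientGroup.eq, QuotientGroup.mk_mul, QuotientGroup.mk_zpow, hi]
      group

end Cfsg.Agent.Lib.Helper59
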